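import Mathlib

set_option autoImplicit false

namespace Cfsg.Agent.Lib.Helper32

/-- Averaging a 1-cocycle: an endomorphism `α` of a finite group `G` that is trivial modulo an abelian normal
subgroup `Z`, and that fixes elementwise a subgroup `T` of index prime to `|Z|`, is conjugation by an element
of `Z`. -/
theorem exists_conj_of_trivial_mod_abelian {G : Type*} [Group G] [Finite G] (Z T : Subgroup G)
    [hZn : Z.Normal] (hZc : ∀ a ∈ Z, ∀ b ∈ Z, a * b = b * a)
    (hcop : Nat.Coprime (Nat.card Z) T.index)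
    (α : G →* G) (hZ : ∀ g, α g * g⁻¹ ∈ Z) (hfixT : ∀ t ∈ T, α t = t) :
    ∃ w ∈ Z, ∀ x, α x = w * x * w⁻¹ := by
  classical
  let _ : CommGroup Z :=
    { (inferInstance : Group Z) with
      mul_comm := fun a b => Subtype.ext (hZc a a.2 b b.2) }
  let _ : Fintype (G ⧸ T) := Fintype.ofFinite _
  let c : G → Z := fun g => ⟨α g * g⁻¹, hZ g⟩
  have hc_mul : ∀ h g : G, c (h * g) = c h * MulAut.conjNormal h (c g) := by
    intro h g
    apply Subtype.ext
    simp only [c, map_mul, Subgroup.coe_mul, MulAut.conjNormal_apply]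
    group
  have hc_T : ∀ (g t : G), t ∈ T → c (g * t) = c g := by
    intro g t ht
    apply Subtype.ext
    simp only [c, map_mul, hfixT t ht]
    group
  set z₀ : Z := ∏ q : G ⧸ T, c q.out with hz₀
  have key : ∀ h : G, z₀ = c h ^ T.index * MulAut.conjNormal h z₀ := by
    intro h
    have h1 : ∏ q : G ⧸ T, c (h • q).out = z₀ :=
      Equiv.prod_comp (MulAction.toPerm h) (fun q : G ⧸ T => c q.out)
    have h2 : ∀ q : G ⧸ T, c (h • q).out = c h * MulAut.conjNormal h (c q.out) := by
      intro q
      rw [← hc_mul]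
      have h3 : ((h * q.out : G) : G ⧸ T) = (((h • q).out : G) : G ⧸ T) := by
        rw [QuotientGroup.out_eq']
        conv_rhs => rw [← QuotientGroup.out_eq' q]
        rfl
      have h4 : (h * q.out)⁻¹ * (h • q).out ∈ T := QuotientGroup.eq.mp h3
      have h5 : (h • q).out = (h * q.out) * ((h * q.out)⁻¹ * (h • q).out) := by group
      rw [h5]
      exact hc_T _ _ h4
    calc z₀ = ∏ q : G ⧸ T, c (h • q).out := h1.symm
      _ = ∏ q : G ⧸ T, (c h * MulAut.conjNormal h (c q.out)) := Finset.prod_congr rfl (fun q _ => h2 q)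
      _ = c h ^ T.index * MulAut.conjNormal h z₀ := by
        rw [Finset.prod_mul_distrib, Finset.prod_const, ← map_prod, Finset.card_univ,
          ← Nat.card_eq_fintype_card]
        rfl
  let e := powCoprime hcop
  obtain ⟨w, hwz⟩ : ∃ w : Z, w ^ T.index = z₀ := ⟨e.symm z₀, e.apply_symm_apply z₀⟩
  refine ⟨w, w.2, fun x => ?_⟩
  have h1 : (c x) ^ T.index = (w * (MulAut.conjNormal x w)⁻¹) ^ T.index := by
    rw [mul_pow, inv_pow, ← map_pow, hwz]
    have := key x
    rw [eq_mul_inv_iff_mul_eq]
    exact this.symm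
  have h2 : c x = w * (MulAut.conjNormal x w)⁻¹ := by
    apply e.injective
    exact h1
  have h3 := congrArg Subtype.val h2
  simp only [c, Subgroup.coe_mul, Subgroup.coe_inv, MulAut.conjNormal_apply] at h3
  have h4 : α x = (α x * x⁻¹) * x := by group
  rw [h4, h3]
  group

end Cfsg.Agent.Lib.Helper32
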