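import Mathlib
import Cfsg.Agent.S3379
import Cfsg.Agent.S3971
import Cfsg.Agent.Lib.Lead.Cores
import Cfsg.Agent.Lib.Helper32.Basic
import Cfsg.Agent.Lib.Helper32.MetaPres
import Cfsg.Agent.Lib.Helper66.FrobCompl

/-!
# Metacyclic groups in which all subgroups of order `p q` are cyclic (helper32)
-/

set_option autoImplicit false

namespace Cfsg.Agent.Lib.Helper32.FCMeta

open Subgroup Cfsg.Agent.Lib.Helper66 Cfsg.Agent.Lib.Helper32.MetaPres

theorem pow_modEq_one_of_forall_prime {s m : ℕ} (hs : 1 ≤ s)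
    (h : ∀ q, q.Prime → q ∣ m → s ≡ 1 [MOD q]) : s ^ m ≡ 1 [MOD m] := by
  have h1 : 1 ≤ s ^ m := Nat.one_le_pow _ _ hs
  apply Nat.ModEq.symm
  rw [Nat.modEq_iff_dvd' h1, Nat.dvd_iff_prime_pow_dvd_dvd]
  intro q k hq hk
  cases k with
  | zero => simp
  | succ j =>
    have hqm : q ∣ m := (dvd_pow_self q (Nat.succ_ne_zero j)).trans hk
    have hqj : q ^ j ∣ m := (pow_dvd_pow q (Nat.le_succ j)).trans hk
    have h2 : (q : ℤ) ∣ (s : ℤ) - 1 := by
      have := (Nat.modEq_iff_dvd' hs).1 (h q hq hqm).symm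
      have h3 : ((q : ℕ) : ℤ) ∣ ((s - 1 : ℕ) : ℤ) := Int.natCast_dvd_natCast.2 this
      rwa [Nat.cast_sub hs, Nat.cast_one] at h3
    have h3 := dvd_sub_pow_of_dvd_sub h2 j
    rw [one_pow] at h3
    obtain ⟨c, rfl⟩ := hqj
    have h4 : (s : ℤ) ^ q ^ j - 1 ∣ ((s : ℤ) ^ q ^ j) ^ c - 1 ^ c := sub_dvd_pow_sub_pow _ _ _
    rw [one_pow, ← pow_mul] at h4
    have h5 := h3.trans h4
    have h6 : ((q ^ (j + 1) : ℕ) : ℤ) ∣ ((s ^ (q ^ j * c) - 1 : ℕ) : ℤ) := by
      rw [Nat.cast_sub h1]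
      push_cast
      exact h5
    exact Int.natCast_dvd_natCast.1 h6

variable {X : Type*} [Group X] [Finite X]

theorem commute_iff {x y : X} {r : ℕ} (hrel : x⁻¹ * y * x = y ^ r) (j i : ℕ) :
    x ^ j ∈ centralizer {y ^ i} ↔ i * r ^ j ≡ i [MOD orderOf y] := by
  rw [mem_centralizer_singleton_iff, ← pow_eq_pow_iff_modEq, ← conj_pow_pow_eq hrel j i]
  constructor
  · intro h
    rw [mul_assoc, ← h]; group
  · intro h
    have h1 : x ^ j * ((x ^ j)⁻¹ * y ^ i * x ^ j) = y ^ i * x ^ j := by group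
    rw [← h1, h]

theorem commute_prime_prime (h : FC X) {x y : X} {n m r : ℕ} (hgen : closure {x, y} = ⊤)
    (hx : orderOf x = n) (hy : orderOf y = m) (hrel : x⁻¹ * y * x = y ^ r) (hcop : n.Coprime m)
    {p q : ℕ} (hp : p.Prime) (hq : q.Prime) (hpn : p ∣ n) (hqm : q ∣ m) :
    x ^ (n / p) ∈ centralizer {y ^ (m / q)} := by
  have hn : 0 < n := by rw [← hx]; exact orderOf_pos x
  have hm : 0 < m := by rw [← hy]; exact orderOf_pos y
  set xp := x ^ (n / p) with hxp
  set yq := y ^ (m / q) with hyq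
  have hoxp : orderOf xp = p := by
    rw [hxp, orderOf_pow_of_dvd (Nat.div_pos (Nat.le_of_dvd hn hpn) hp.pos).ne'
      (by rw [hx]; exact Nat.div_dvd_of_dvd hpn), hx, Nat.div_div_self hpn hn.ne']
  have hoyq : orderOf yq = q := by
    rw [hyq, orderOf_pow_of_dvd (Nat.div_pos (Nat.le_of_dvd hm hqm) hq.pos).ne'
      (by rw [hy]; exact Nat.div_dvd_of_dvd hqm), hy, Nat.div_div_self hqm hm.ne']
  have hnorm : (zpowers yq).Normal := by
    rw [← normalizer_eq_top_iff, eq_top_iff, ← hgen, closure_le]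
    rintro w (rfl | rfl)
    · apply Cfsg.Agent.S3971.norm_of_sub
      intro d hd
      obtain ⟨k, rfl⟩ := mem_zpowers_iff.1 hd
      have h2 : w⁻¹ * yq ^ k * w = (w⁻¹ * yq * w) ^ k := by
        have := conj_zpow (a := w⁻¹) (b := yq) (i := k)
        rw [inv_inv] at this
        exact this.symm
      have h3 : w⁻¹ * yq * w = yq ^ r := by
        have := conj_pow_pow_eq hrel 1 (m / q)
        rw [pow_one, pow_one] at this
        rw [hyq, this, ← pow_mul]
      rw [h2, h3]
      exact zpow_mem (pow_mem (mem_zpowers yq) _) _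
    · apply Cfsg.Agent.S3971.norm_of_sub
      intro d hd
      obtain ⟨k, rfl⟩ := mem_zpowers_iff.1 hd
      have h2 : Commute w (yq ^ k) := ((Commute.refl w).pow_right _).zpow_right k
      have h3 : w⁻¹ * yq ^ k * w = yq ^ k := by
        rw [mul_assoc, ← h2.eq, inv_mul_cancel_left]
      rw [h3]
      exact zpow_mem (mem_zpowers yq) _
  have hpq : p.Coprime q :=
    Nat.Coprime.of_dvd_left hpn (Nat.Coprime.of_dvd_right hqm hcop)
  have hcard : Nat.card (zpowers xp ⊔ zpowers yq : Subgroup X) = p * q := by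
    apply Nat.dvd_antisymm
    · have := Cfsg.Agent.Lib.Lead.card_sup_dvd (zpowers xp) (zpowers yq)
      rwa [Nat.card_zpowers, Nat.card_zpowers, hoxp, hoyq] at this
    · apply Nat.Coprime.mul_dvd_of_dvd_of_dvd hpq
      · have := Subgroup.card_dvd_of_le (le_sup_left : zpowers xp ≤ zpowers xp ⊔ zpowers yq)
        rwa [Nat.card_zpowers, hoxp] at this
      · have := Subgroup.card_dvd_of_le (le_sup_right : zpowers yq ≤ zpowers xp ⊔ zpowers yq)
        rwa [Nat.card_zpowers, hoyq] at this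
  have hcyc := h _ p q hp hq hcard
  rw [mem_centralizer_singleton_iff]
  exact (commute_of_isCyclic _ hcyc
    ((le_sup_left : zpowers xp ≤ zpowers xp ⊔ zpowers yq) (mem_zpowers xp))
    ((le_sup_right : zpowers yq ≤ zpowers xp ⊔ zpowers yq) (mem_zpowers yq))).eq

theorem commute_prime (h : FC X) {x y : X} {n m r : ℕ} (hgen : closure {x, y} = ⊤)
    (hx : orderOf x = n) (hy : orderOf y = m) (hrel : x⁻¹ * y * x = y ^ r) (hcop : n.Coprime m)
    (hr : 1 ≤ r) {p : ℕ} (hp : p.Prime) (hpn : p ∣ n) : x ^ (n / p) ∈ centralizer {y} := by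
  have hm : 0 < m := by rw [← hy]; exact orderOf_pos y
  have h1 : ∀ q, q.Prime → q ∣ m → r ^ (n / p) ≡ 1 [MOD q] := by
    intro q hq hqm
    have h2 := (commute_iff hrel (n / p) (m / q)).1
      (commute_prime_prime h hgen hx hy hrel hcop hp hq hpn hqm)
    rw [hy] at h2
    have h3 : m / q * r ^ (n / p) ≡ m / q * 1 [MOD m / q * q] := by
      rw [mul_one, Nat.div_mul_cancel hqm]; exact h2
    exact Nat.ModEq.mul_left_cancel' (Nat.div_pos (Nat.le_of_dvd hm hqm) hq.pos).ne' h3
  have h2 := pow_modEq_one_of_forall_prime (Nat.one_le_pow _ _ hr) h1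
  have hpm : p.Coprime m := Nat.Coprime.of_dvd_left hpn hcop
  apply mem_of_pow_mem_coprime hpm
  · rw [← pow_mul, Nat.div_mul_cancel hpn, ← hx, pow_orderOf_eq_one]
    exact one_mem _
  · have h3 := (commute_iff hrel (n / p * m) 1).2
    rw [pow_one, one_mul, hy, pow_mul] at h3
    rw [← pow_mul]
    exact h3 h2

theorem commute_rad (h : FC X) {x y : X} {n m r : ℕ} (hgen : closure {x, y} = ⊤)
    (hx : orderOf x = n) (hy : orderOf y = m) (hrel : x⁻¹ * y * x = y ^ r) (hcop : n.Coprime m)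
    (hr : 1 ≤ r) (S : Finset ℕ) (hS : S ⊆ n.primeFactors) :
    x ^ (n / ∏ p ∈ S, p) ∈ centralizer {y} := by
  have hn : 0 < n := by rw [← hx]; exact orderOf_pos x
  induction S using Finset.induction_on with
  | empty =>
    rw [Finset.prod_empty, Nat.div_one, ← hx, pow_orderOf_eq_one]
    exact one_mem _
  | insert q S hqS ih =>
    have hS' : S ⊆ n.primeFactors := (Finset.subset_insert q S).trans hS
    have hq : q ∈ n.primeFactors := hS (Finset.mem_insert_self q S)
    have hqp : q.Prime := Nat.prime_of_mem_primeFactors hq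
    have hqn : q ∣ n := Nat.dvd_of_mem_primeFactors hq
    have hdvd : ∏ p ∈ insert q S, p ∣ n :=
      (Finset.prod_dvd_prod_of_subset _ _ _ hS).trans (Nat.prod_primeFactors_dvd n)
    rw [Finset.prod_insert hqS] at hdvd ⊢
    set A := ∏ p ∈ S, p with hA
    have hcopA : q.Coprime A := by
      apply Nat.Coprime.prod_right
      intro i hi
      apply (Nat.coprime_primes hqp (Nat.prime_of_mem_primeFactors (hS' hi))).2
      rintro rfl
      exact hqS hi
    obtain ⟨c, hc⟩ := hdvd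
    have hApos : 0 < A := Nat.pos_of_ne_zero (by rintro h0; rw [h0] at hc; simp at hc; omega)
    have e1 : n / (q * A) = c := by
      rw [hc]; exact Nat.mul_div_cancel_left _ (Nat.mul_pos hqp.pos hApos)
    have e2 : n / A = c * q := by
      rw [hc, show q * A * c = A * (c * q) by ring]
      exact Nat.mul_div_cancel_left _ hApos
    have e3 : n / q = c * A := by
      rw [hc, show q * A * c = q * (c * A) by ring]
      exact Nat.mul_div_cancel_left _ hqp.pos
    apply mem_of_pow_mem_coprime hcopA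
    · rw [← pow_mul, e1, ← e2]
      exact ih hS'
    · rw [← pow_mul, e1, ← e3]
      exact commute_prime h hgen hx hy hrel hcop hr hqp hqn

/-- a group with cyclic Sylow subgroups in which all subgroups of order `p q` are cyclic -/
theorem exists_presentation (h : FC X)
    (hZ : ∀ (p : ℕ) [Fact p.Prime] (P : Sylow p X), IsCyclic (P : Subgroup X)) :
    ∃ n m r : ℕ, 0 < n ∧ 0 < m ∧ Nat.Coprime (r - 1) m ∧ Nat.Coprime n m ∧ 1 ≤ r ∧
      r ^ (n / ∏ p ∈ n.primeFactors, p) % m = 1 % m ∧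
      Nonempty (X ≃* PresentedGroup (rels n m r)) := by
  obtain ⟨x, y, n, m, r, hgen, hx, hy, hrel, h1, hcop, hr, -⟩ := Cfsg.Agent.S3379.result hZ
  refine ⟨n, m, r, by rw [← hx]; exact orderOf_pos x, by rw [← hy]; exact orderOf_pos y, h1, hcop,
    hr, ?_, metacyclic_presentation x y n m r hgen hx hy hrel hcop⟩
  have h2 := commute_rad h hgen hx hy hrel hcop hr n.primeFactors (Finset.Subset.refl _)
  have h3 := (commute_iff hrel (n / ∏ p ∈ n.primeFactors, p) 1).1 (by rw [pow_one]; exact h2)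
  rw [one_mul, hy] at h3
  exact h3

end Cfsg.Agent.Lib.Helper32.FCMeta
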