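import Mathlib
import Cfsg.Agent.S0016
import Cfsg.Agent.S3971
import Cfsg.Agent.Lib.Helper5.Quaternion
import Cfsg.Agent.Lib.Helper32.Basic

/-!
# Groups with at most one involution (helper32)

`UI Y`: the group `Y` has at most one element of order two.  Its `2`-subgroups are cyclic or
generalized quaternion; the property passes to subgroups and to quotients by normal subgroups of
odd order.  Elements of odd order normalizing a cyclic `2`-group or a generalized quaternion group
of order at least `16` centralize it.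
-/

set_option autoImplicit false

namespace Cfsg.Agent.Lib.Helper32.FCSol

open Subgroup QuaternionGroup

theorem card_mul_relIndex {Y : Type*} [Group Y] {H K : Subgroup Y} (h : H ≤ K) :
    Nat.card H * H.relIndex K = Nat.card K := by
  have := Subgroup.relIndex_mul_relIndex ⊥ H K bot_le h
  rwa [Subgroup.relIndex_bot_left, Subgroup.relIndex_bot_left] at this

/-- at most one involution -/
def UI (Y : Type*) [Group Y] : Prop := ∀ x y : Y, orderOf x = 2 → orderOf y = 2 → x = y

theorem UI.subgroup {Y : Type*} [Group Y] (h : UI Y) (S : Subgroup Y) : UI S := by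
  intro x y hx hy
  apply Subtype.ext
  exact h _ _ (by rw [Subgroup.orderOf_coe, hx]) (by rw [Subgroup.orderOf_coe, hy])

theorem UI.of_injective {X Y : Type*} [Group X] [Group Y] (h : UI Y) (f : X →* Y)
    (hf : Function.Injective f) : UI X := by
  intro x y hx hy
  apply hf
  exact h _ _ (by rw [orderOf_injective f hf, hx]) (by rw [orderOf_injective f hf, hy])

theorem UI.group_cyclic_or_quaternion {S : Type*} [Group S] [Finite S] (h : UI S)
    (hS : IsPGroup 2 S) :
    IsCyclic S ∨ ∃ n : ℕ, Nonempty (S ≃* QuaternionGroup (2 ^ (n + 1))) := by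
  have two_prime : Fact (Nat.Prime 2) := ⟨Nat.prime_two⟩
  have key : ∀ H : Subgroup S, Nat.card H = 2 → ∃ x : S, orderOf x = 2 ∧ H = Subgroup.zpowers x := by
    intro H hH
    obtain ⟨a, ha⟩ := exists_prime_orderOf_dvd_card' (G := H) 2 (by rw [hH])
    rw [← Subgroup.orderOf_coe] at ha
    refine ⟨a, ha, ?_⟩
    refine (Subgroup.eq_of_le_of_card_ge (Subgroup.zpowers_le.mpr a.2) ?_).symm
    rw [Nat.card_zpowers, ha, hH]
  rcases Cfsg.Agent.S0016.result 2 hS (fun H K hH hK => by
      obtain ⟨x, hx, rfl⟩ := key H hH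
      obtain ⟨y, hy, rfl⟩ := key K hK
      rw [h x y hx hy]) with h1 | ⟨-, n, ⟨e⟩⟩
  · exact Or.inl h1
  · cases n with
    | zero =>
      left
      have hc : IsCyclic (QuaternionGroup (2 ^ 0)) := by
        rw [pow_zero]; exact QuaternionGroup.quaternionGroup_one_isCyclic
      exact isCyclic_of_surjective e.symm e.symm.surjective
    | succ k => exact Or.inr ⟨k, ⟨e⟩⟩

theorem UI.cyclic_or_quaternion {Y : Type*} [Group Y] [Finite Y] (h : UI Y) (S : Subgroup Y)
    (hS : IsPGroup 2 S) :
    IsCyclic S ∨ ∃ n : ℕ, Nonempty (S ≃* QuaternionGroup (2 ^ (n + 1))) :=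
  (h.subgroup S).group_cyclic_or_quaternion hS

/-- involutions of a quotient by a normal subgroup of odd order lift to involutions -/
theorem exists_lift_orderOf_two {G : Type*} [Group G] [Finite G] (K : Subgroup G) [K.Normal]
    (hK : Odd (Nat.card K)) (x : G ⧸ K) (hx : orderOf x = 2) :
    ∃ g : G, orderOf g = 2 ∧ (g : G ⧸ K) = x := by
  obtain ⟨g, rfl⟩ := QuotientGroup.mk_surjective x
  obtain ⟨k, m, hm, hkm⟩ := Nat.exists_eq_two_pow_mul_odd (orderOf_pos g).ne'
  have hx2 : (g : G ⧸ K) ^ 2 = 1 := by rw [← hx]; exact pow_orderOf_eq_one _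
  have hx1 : (g : G ⧸ K) ≠ 1 := by
    intro h1
    rw [h1, orderOf_one] at hx
    omega
  have hgm : ((g ^ m : G) : G ⧸ K) = (g : G ⧸ K) := by
    obtain ⟨j, rfl⟩ := hm
    rw [QuotientGroup.mk_pow, pow_succ, pow_mul, hx2, one_pow, one_mul]
  refine ⟨g ^ m, ?_, hgm⟩
  have h1 : (g ^ m) ^ 2 ∈ K := by
    rw [← QuotientGroup.eq_one_iff, QuotientGroup.mk_pow, hgm, hx2]
  have h2 : ((g ^ m) ^ 2) ^ Nat.card K = 1 := by
    have := pow_card_eq_one' (G := K) (x := ⟨_, h1⟩)
    exact congrArg Subtype.val this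
  have h3 : ((g ^ m) ^ 2) ^ (2 ^ k) = 1 := by
    rw [← pow_mul, ← pow_mul, mul_comm 2, ← mul_assoc, mul_comm m, ← hkm, pow_mul,
      pow_orderOf_eq_one, one_pow]
  have hcop : Nat.Coprime (Nat.card K) (2 ^ k) :=
    Nat.Coprime.pow_right _ (Nat.coprime_two_right.mpr hK)
  have h4 : (g ^ m) ^ 2 = 1 := eq_one_of_pow_eq_one_coprime hcop h2 h3
  apply orderOf_eq_prime h4
  intro h5
  rw [h5] at hgm
  exact hx1 hgm.symm

theorem UI.quotient {G : Type*} [Group G] [Finite G] (h : UI G) (K : Subgroup G) [K.Normal]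
    (hK : Odd (Nat.card K)) : UI (G ⧸ K) := by
  intro x y hx hy
  obtain ⟨g, hg, rfl⟩ := exists_lift_orderOf_two K hK x hx
  obtain ⟨g', hg', rfl⟩ := exists_lift_orderOf_two K hK y hy
  rw [h g g' hg hg']

/-- an element of odd order normalizing a generalized quaternion group of order at least `16`
centralizes it -/
theorem cent_of_quaternion {Y : Type*} [Group Y] [Finite Y] (R : Subgroup Y) (n : ℕ)
    (e : R ≃* QuaternionGroup (2 ^ (n + 2))) (g : Y) (hg : g ∈ normalizer (R : Set Y))
    (hodd : Odd (orderOf g)) : g ∈ centralizer (R : Set Y) := by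
  have hcardR : Nat.card R = 2 ^ (n + 4) := by
    rw [Nat.card_congr e.toEquiv, Nat.card_eq_fintype_card, QuaternionGroup.card]
    ring
  have hR : IsPGroup 2 R := IsPGroup.of_card hcardR
  set y : Y := ((e.symm (a 1) : R) : Y) with hy
  have hyR : y ∈ R := (e.symm (a 1)).2
  have hoy : orderOf y = 2 * 2 ^ (n + 2) := by
    rw [hy, Subgroup.orderOf_coe, MulEquiv.orderOf_eq, orderOf_a_one]
  have hidx : (zpowers y).relIndex R = 2 := by
    have h1 := card_mul_relIndex (zpowers_le.mpr hyR)
    rw [Nat.card_zpowers, hoy, hcardR] at h1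
    have h2 : (2 * 2 ^ (n + 2)) * (zpowers y).relIndex R = (2 * 2 ^ (n + 2)) * 2 := by
      rw [h1]; ring
    exact Nat.eq_of_mul_eq_mul_left (by positivity) h2
  -- elements of `R` of order different from `4` are in `⟨y⟩`
  have hmem : ∀ w ∈ R, orderOf w ≠ 4 → w ∈ zpowers y := by
    intro w hw ho
    have h1 : ∃ i, e ⟨w, hw⟩ = a i := by
      rcases hq : e ⟨w, hw⟩ with i | i
      · exact ⟨i, rfl⟩
      · exfalso
        apply ho
        have : orderOf (e ⟨w, hw⟩) = 4 := by rw [hq]; exact orderOf_xa i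
        rw [MulEquiv.orderOf_eq, ← Subgroup.orderOf_coe] at this
        exact this
    have h2 := (Cfsg.Agent.Lib.Helper5.quaternion_mem_zpowers_iff _).2 h1
    obtain ⟨k, hk⟩ := Subgroup.mem_zpowers_iff.1 h2
    refine Subgroup.mem_zpowers_iff.2 ⟨k, ?_⟩
    have h3 : e.symm (a 1 ^ k) = ⟨w, hw⟩ := by rw [hk]; simp
    rw [map_zpow] at h3
    have := congrArg Subtype.val h3
    simpa using this
  have hn1 : g ∈ normalizer ((zpowers y : Subgroup Y) : Set Y) := by
    apply Cfsg.Agent.S3971.norm_of_sub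
    intro d hd
    obtain ⟨k, rfl⟩ := Subgroup.mem_zpowers_iff.1 hd
    have h1 : g⁻¹ * y * g ∈ zpowers y := by
      apply hmem
      · have := (Subgroup.mem_normalizer_iff.1 (inv_mem hg) y).1 hyR
        simpa using this
      · have h2 : orderOf (g⁻¹ * y * g) = orderOf y := by
          have := orderOf_injective (MulAut.conj g⁻¹).toMonoidHom (MulAut.conj g⁻¹).injective y
          simpa [MulAut.conj_apply] using this
        rw [h2, hoy]
        have : 4 ≤ 2 ^ (n + 2) := by
          calc 4 = 2 ^ 2 := by norm_num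
            _ ≤ 2 ^ (n + 2) := Nat.pow_le_pow_right (by norm_num) (by omega)
        omega
    have h3 : g⁻¹ * y ^ k * g = (g⁻¹ * y * g) ^ k := by
      have := map_zpow (MulAut.conj g⁻¹).toMonoidHom y k
      simpa [MulAut.conj_apply] using this
    rw [h3]
    exact zpow_mem h1 k
  have hc1 := Cfsg.Agent.S3971.cent_of_cyclic (zpowers y) (hR.to_le (zpowers_le.mpr hyR))
    inferInstance g hn1 hodd
  exact Cfsg.Agent.S3971.cent_of_index_two R (zpowers y) hR hidx g hg hc1 hodd

end Cfsg.Agent.Lib.Helper32.FCSol
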