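import Mathlib
import Cfsg.Agent.S0228
import Cfsg.Agent.S1012
import Cfsg.Agent.Lib.Helper20.Fus5
import Cfsg.Agent.Lib.Helper32.FCSol1
import Cfsg.Agent.Lib.Helper32.AutSL25

/-!
# Groups with one involution and a self-centralizing normal `2`-subgroup (helper32)

If `Y` has at most one involution and `T` is a normal `2`-subgroup with `C_Y(T) ≤ T`, then `Y` has
a cyclic normal subgroup `N` with `Y / N` trivial, a four-group, `A₄` or `S₄`.
-/

set_option autoImplicit false

namespace Cfsg.Agent.Lib.Helper32.FCSol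

open Subgroup QuaternionGroup

variable {Y : Type*} [Group Y] [Finite Y]

theorem eq_one_of_odd_of_mem_two_group {T : Subgroup Y} (hT : IsPGroup 2 T) {d : Y}
    (hd : Odd (orderOf d)) (hdT : d ∈ T) : d = 1 := by
  obtain ⟨k, hk⟩ := hT ⟨d, hdT⟩
  have h1 : d ^ 2 ^ k = 1 := congrArg Subtype.val hk
  exact eq_one_of_pow_eq_one_coprime (Nat.Coprime.pow_right k (Nat.coprime_two_right.mpr hd))
    (pow_orderOf_eq_one d) h1

/-- if all elements of odd order are trivial the group is a `2`-group -/
theorem isPGroup_two_of_odd (h : ∀ d : Y, Odd (orderOf d) → d = 1) : IsPGroup 2 Y := by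
  intro g
  obtain ⟨k, m, hm, hkm⟩ := Nat.exists_eq_two_pow_mul_odd (orderOf_pos g).ne'
  refine ⟨k, h _ ?_⟩
  have h1 : orderOf (g ^ 2 ^ k) = m := by
    rw [orderOf_pow_of_dvd (by positivity) (by rw [hkm]; exact dvd_mul_right _ _), hkm]
    exact Nat.mul_div_cancel_left _ (by positivity)
  rw [h1]; exact hm

theorem isPGroup_of_cyclic (T : Subgroup Y) [T.Normal] (hT : IsPGroup 2 T)
    (hC : centralizer (T : Set Y) ≤ T) (hc : IsCyclic T) : IsPGroup 2 Y := by
  apply isPGroup_two_of_odd
  intro d hd
  apply eq_one_of_odd_of_mem_two_group hT hd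
  apply hC
  exact Cfsg.Agent.S3971.cent_of_cyclic T hT hc d
    (by rw [normalizer_eq_top_iff.mpr inferInstance]; trivial) hd

theorem isPGroup_of_quaternion (T : Subgroup Y) [T.Normal] (hT : IsPGroup 2 T)
    (hC : centralizer (T : Set Y) ≤ T) (n : ℕ) (e : T ≃* QuaternionGroup (2 ^ (n + 2))) :
    IsPGroup 2 Y := by
  apply isPGroup_two_of_odd
  intro d hd
  apply eq_one_of_odd_of_mem_two_group hT hd
  apply hC
  exact cent_of_quaternion T n e d (by rw [normalizer_eq_top_iff.mpr inferInstance]; trivial) hd

/-! ### the case `T ≅ Q₈` -/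

theorem q8_central_of_sq : ∀ w : QuaternionGroup 2, w * w = 1 → ∀ v, v * w = w * v := by decide

theorem q8_pow_four : ∀ w : QuaternionGroup 2, w ^ 4 = 1 := by decide

theorem q8_not_comm : (a 1 : QuaternionGroup 2) * xa 0 ≠ xa 0 * a 1 := by decide

theorem card_q8 {T : Subgroup Y} (e : T ≃* QuaternionGroup 2) : Nat.card T = 8 := by
  rw [Nat.card_congr e.toEquiv, Nat.card_eq_fintype_card, QuaternionGroup.card]

theorem core (h : UI Y) (T : Subgroup Y) [T.Normal] (e : T ≃* QuaternionGroup 2)
    (hC : centralizer (T : Set Y) ≤ T) {d t : Y} (hd : Odd (orderOf d)) (hd1 : d ≠ 1)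
    (hdt : Commute d t) (ht : ∃ k : ℕ, t ^ 2 ^ k = 1) : t ∈ centralizer (T : Set Y) := by
  have hcT := card_q8 e
  have hT : IsPGroup 2 T := IsPGroup.of_card (n := 3) (by rw [hcT]; norm_num)
  have hdN : ∀ R : Subgroup Y, R.Normal → d ∈ normalizer (R : Set Y) := by
    intro R hR
    rw [normalizer_eq_top_iff.mpr hR]; trivial
  have hnot : d ∉ centralizer (T : Set Y) := fun hh =>
    hd1 (eq_one_of_odd_of_mem_two_group hT hd (hC hh))
  -- `t ∈ T`
  have htT : t ∈ T := by
    set R : Subgroup Y := T ⊔ zpowers t with hR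
    have hZ : IsPGroup 2 (zpowers t) := by
      obtain ⟨k, hk⟩ := ht
      have h1 : orderOf t ∣ 2 ^ k := orderOf_dvd_of_pow_eq_one hk
      obtain ⟨j, -, hj⟩ := (Nat.dvd_prime_pow Nat.prime_two).1 h1
      exact IsPGroup.of_card (n := j) (by rw [Nat.card_zpowers, hj])
    have hRp : IsPGroup 2 R := IsPGroup.to_sup_of_normal_left hT hZ
    have hdR : d ∈ normalizer (R : Set Y) := by
      apply Cfsg.Agent.S3971.norm_of_sub
      have hle : R ≤ R.comap (MulAut.conj d⁻¹).toMonoidHom := by
        rw [hR]
        apply sup_le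
        · intro x hx
          rw [mem_comap]
          apply (le_sup_left : T ≤ T ⊔ zpowers t)
          have := (inferInstance : T.Normal).conj_mem x hx d⁻¹
          simpa [MulAut.conj_apply] using this
        · rw [zpowers_le, mem_comap]
          apply (le_sup_right : zpowers t ≤ T ⊔ zpowers t)
          have h1 : (MulAut.conj d⁻¹).toMonoidHom t = t := by
            simp only [MulEquiv.coe_toMonoidHom, MulAut.conj_apply, inv_inv]
            rw [mul_assoc, ← hdt.eq, inv_mul_cancel_left]
          rw [h1]; exact mem_zpowers t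
      intro r hr
      have := hle hr
      simpa [mem_comap, MulAut.conj_apply] using this
    rcases h.cyclic_or_quaternion R hRp with hc | ⟨n, ⟨eR⟩⟩
    · exfalso
      have hcT' : IsCyclic T := Subgroup.isCyclic_of_le (le_sup_left : T ≤ R)
      have hcomm := hcT'.isMulCommutative
      apply q8_not_comm
      have := hcomm.is_comm.comm (e.symm (a 1)) (e.symm (xa 0))
      rw [← map_mul, ← map_mul] at this
      exact e.symm.injective this
    · cases n with
      | zero =>
        have hcR : Nat.card R = 8 := by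
          rw [Nat.card_congr eR.toEquiv, Nat.card_eq_fintype_card, QuaternionGroup.card]
          norm_num
        have hTR : T = R := Subgroup.eq_of_le_of_card_ge le_sup_left (by rw [hcR, hcT])
        rw [hTR]
        exact (le_sup_right : zpowers t ≤ T ⊔ zpowers t) (mem_zpowers t)
      | succ m =>
        exfalso
        apply hnot
        have h1 := cent_of_quaternion R m eR d hdR hd
        exact centralizer_le (show (T : Set Y) ⊆ R from (le_sup_left : T ≤ R)) h1
  by_contra hcon
  apply hnot
  -- `t` has order four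
  have hsq : e ⟨t, htT⟩ * e ⟨t, htT⟩ ≠ 1 := by
    intro h1
    apply hcon
    rw [mem_centralizer_iff]
    intro x hx
    have h2 := q8_central_of_sq _ h1 (e ⟨x, hx⟩)
    rw [← map_mul, ← map_mul] at h2
    exact congrArg Subtype.val (e.injective h2)
  have ho : orderOf t = 4 := by
    have h1 : orderOf (e ⟨t, htT⟩) = 2 ^ (1 + 1) := by
      apply orderOf_eq_prime_pow
      · rw [pow_one, pow_two]; exact hsq
      · exact q8_pow_four _
    rw [MulEquiv.orderOf_eq, ← Subgroup.orderOf_coe] at h1
    simpa using h1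
  have hidx : (zpowers t).relIndex T = 2 := by
    have h1 := card_mul_relIndex (zpowers_le.mpr htT)
    rw [Nat.card_zpowers, ho, hcT] at h1
    omega
  have hdc : d ∈ centralizer ((zpowers t : Subgroup Y) : Set Y) := by
    rw [mem_centralizer_iff]
    intro x hx
    obtain ⟨k, rfl⟩ := mem_zpowers_iff.1 hx
    exact ((hdt.zpow_right k).eq).symm
  exact Cfsg.Agent.S3971.cent_of_index_two T (zpowers t) hT hidx d (hdN T inferInstance) hdc hd

end Cfsg.Agent.Lib.Helper32.FCSol
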