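import Mathlib
import Cfsg.Agent.Lib.Helper32.FCSol2

/-!
# Groups with one involution and a self-centralizing normal `2`-subgroup, II (helper32)
-/

set_option autoImplicit false

namespace Cfsg.Agent.Lib.Helper32.FCSol

open Subgroup QuaternionGroup

variable {Y : Type*} [Group Y] [Finite Y]

/-- the action of `Y` on the three cyclic subgroups of order four of a normal `Q₈` -/
noncomputable def piY (T : Subgroup Y) [T.Normal] (e : T ≃* QuaternionGroup 2) :
    Y →* Equiv.Perm (Fin 3) :=
  Cfsg.Agent.Lib.Helper20.Fus.piHom.comp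
    ((MulAut.congr e).toMonoidHom.comp (MulAut.conjNormal : Y →* MulAut T))

omit [Finite Y] in
theorem ker_piY (T : Subgroup Y) [T.Normal] (e : T ≃* QuaternionGroup 2) :
    (piY T e).ker = T ⊔ centralizer (T : Set Y) := by
  rw [← Cfsg.Agent.Lib.Helper20.Fus.innSub_eq]
  ext y
  rw [MonoidHom.mem_ker, Cfsg.Agent.Lib.Helper20.Fus.mem_innSub]
  have h1 : piY T e y = Cfsg.Agent.Lib.Helper20.Fus.piHom
      (MulAut.congr e (MulAut.conjNormal y : MulAut T)) := rfl
  rw [h1, Cfsg.Agent.Lib.Helper20.Fus.piHom_eq_one_iff]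
  have h2 : ∀ v : T, (MulAut.congr e (MulAut.conjNormal y : MulAut T)) (e v)
      = e (MulAut.conjNormal y v) := by
    intro v
    simp [MulAut.congr]
  constructor
  · rintro ⟨u', hu'⟩
    refine ⟨(e.symm u' : T), (e.symm u').2, fun v hv => ?_⟩
    have h3 := hu' (e ⟨v, hv⟩)
    rw [h2] at h3
    have h4 : u' * e ⟨v, hv⟩ * u'⁻¹ = e (e.symm u' * ⟨v, hv⟩ * (e.symm u')⁻¹) := by
      rw [map_mul, map_mul, map_inv, MulEquiv.apply_symm_apply]
    rw [h4] at h3
    have := congrArg Subtype.val (e.injective h3)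
    simpa using this
  · rintro ⟨u, hu, hx⟩
    refine ⟨e ⟨u, hu⟩, fun w => ?_⟩
    obtain ⟨⟨v, hv⟩, rfl⟩ := e.surjective w
    rw [h2, ← map_inv, ← map_mul, ← map_mul]
    congr 1
    apply Subtype.ext
    simpa using hx v hv

theorem index_dvd_six (T : Subgroup Y) [T.Normal] (e : T ≃* QuaternionGroup 2)
    (hC : centralizer (T : Set Y) ≤ T) : T.index ∣ 6 := by
  have h1 : (piY T e).ker = T := by rw [ker_piY, sup_eq_left.mpr hC]
  have h2 : T.index = Nat.card (piY T e).range := by
    conv_lhs => rw [← h1]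
    exact Subgroup.index_ker _
  rw [h2]
  have := Subgroup.card_subgroup_dvd_card (piY T e).range
  rwa [Nat.card_perm, Nat.card_fin] at this

theorem card_center_q8 : Nat.card (center (QuaternionGroup 2)) = 2 := by
  rw [Nat.card_eq_fintype_card]
  decide

omit [Finite Y] in
theorem card_centralizer_q8 (T : Subgroup Y) (e : T ≃* QuaternionGroup 2)
    (hC : centralizer (T : Set Y) ≤ T) : Nat.card (centralizer (T : Set Y)) = 2 := by
  have h1 : T ⊓ centralizer (T : Set Y) = centralizer (T : Set Y) := inf_eq_right.mpr hC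
  rw [← h1, ← AutSL25.map_center_eq, card_map_of_injective T.subtype_injective,
    Nat.card_congr (centerCongr e).toEquiv, card_center_q8]

omit [Finite Y] in
theorem sq_eq_one_of_mem (T : Subgroup Y) (e : T ≃* QuaternionGroup 2)
    (hC : centralizer (T : Set Y) ≤ T) {c : Y} (hc : c ∈ centralizer (T : Set Y)) : c ^ 2 = 1 := by
  have := pow_card_eq_one' (G := centralizer (T : Set Y)) (x := ⟨c, hc⟩)
  rw [card_centralizer_q8 T e hC] at this
  exact congrArg Subtype.val this

omit [Finite Y] in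
theorem central_of_mem (h : UI Y) (T : Subgroup Y) (e : T ≃* QuaternionGroup 2)
    (hC : centralizer (T : Set Y) ≤ T) {c : Y} (hc : c ∈ centralizer (T : Set Y)) (y : Y) :
    Commute c y := by
  by_cases hc1 : c = 1
  · rw [hc1]; exact Commute.one_left y
  · have ho : orderOf c = 2 := orderOf_eq_prime (sq_eq_one_of_mem T e hC hc) hc1
    have ho' : orderOf (y * c * y⁻¹) = 2 := by
      have := orderOf_injective (MulAut.conj y).toMonoidHom (MulAut.conj y).injective c
      rw [← ho, ← this]
      simp [MulAut.conj_apply]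
    have h1 := h _ _ ho' ho
    have h2 : y * c = c * y := by
      rw [mul_inv_eq_iff_eq_mul] at h1
      exact h1
    exact h2.symm

theorem no_order_six (h : UI Y) (T : Subgroup Y) [T.Normal] (e : T ≃* QuaternionGroup 2)
    (hC : centralizer (T : Set Y) ≤ T) (w : Y ⧸ centralizer (T : Set Y)) : orderOf w ≠ 6 := by
  intro ho
  obtain ⟨w, rfl⟩ := QuotientGroup.mk_surjective w
  have h6 : w ^ 6 ∈ centralizer (T : Set Y) := by
    rw [← QuotientGroup.eq_one_iff, QuotientGroup.mk_pow, ← ho]
    exact pow_orderOf_eq_one _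
  have h12 : w ^ 12 = 1 := by
    have := sq_eq_one_of_mem T e hC h6
    rw [← pow_mul] at this
    exact this
  have hd1 : w ^ 4 ≠ 1 := by
    intro h4
    have h5 : (w : Y ⧸ centralizer (T : Set Y)) ^ 4 = 1 := by
      rw [← QuotientGroup.mk_pow, h4]; rfl
    have := orderOf_dvd_of_pow_eq_one h5
    rw [ho] at this
    omega
  have hod : orderOf (w ^ 4) = 3 := by
    apply orderOf_eq_prime _ hd1
    rw [← pow_mul]; exact h12
  have h3 := core h T e hC (d := w ^ 4) (t := w ^ 3) (by rw [hod]; decide) hd1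
    ((Commute.refl w).pow_pow 4 3) ⟨2, by rw [← pow_mul]; exact h12⟩
  rw [← QuotientGroup.eq_one_iff, QuotientGroup.mk_pow] at h3
  have := orderOf_dvd_of_pow_eq_one h3
  rw [ho] at this
  omega

theorem no_central_involution (h : UI Y) (T : Subgroup Y) [T.Normal]
    (e : T ≃* QuaternionGroup 2) (hC : centralizer (T : Set Y) ≤ T) (h3 : 3 ∣ Nat.card Y)
    (z : Y ⧸ centralizer (T : Set Y)) (hz : orderOf z = 2) :
    z ∉ center (Y ⧸ centralizer (T : Set Y)) := by
  intro hzc
  obtain ⟨t, rfl⟩ := QuotientGroup.mk_surjective z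
  have : Fact (Nat.Prime 3) := ⟨Nat.prime_three⟩
  obtain ⟨d, hd⟩ := exists_prime_orderOf_dvd_card' 3 h3
  have hc : t * d * t⁻¹ * d⁻¹ ∈ centralizer (T : Set Y) := by
    rw [← QuotientGroup.eq_one_iff]
    have h1 := mem_center_iff.1 hzc (d : Y ⧸ centralizer (T : Set Y))
    rw [QuotientGroup.mk_mul, QuotientGroup.mk_mul, QuotientGroup.mk_mul, QuotientGroup.mk_inv,
      QuotientGroup.mk_inv, ← h1]
    group
  set c := t * d * t⁻¹ * d⁻¹ with hcdef
  have hcc := central_of_mem h T e hC hc
  have hc2 := sq_eq_one_of_mem T e hC hc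
  have h1 : t * d * t⁻¹ = c * d := by rw [hcdef]; group
  have h2 : (t * d * t⁻¹) ^ 3 = 1 := by
    rw [conj_pow, ← hd, pow_orderOf_eq_one]; group
  have h4 : c = 1 := by
    rw [h1, (hcc d).mul_pow, ← hd, pow_orderOf_eq_one, mul_one, hd, pow_succ, hc2, one_mul] at h2
    exact h2
  have hcomm : Commute d t := by
    rw [h4, one_mul, mul_inv_eq_iff_eq_mul] at h1
    exact h1.symm
  have ht2 : t ^ 2 ∈ centralizer (T : Set Y) := by
    rw [← QuotientGroup.eq_one_iff, QuotientGroup.mk_pow, ← hz]
    exact pow_orderOf_eq_one _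
  have ht4 : t ^ 2 ^ 2 = 1 := by
    have := sq_eq_one_of_mem T e hC ht2
    rw [← pow_mul] at this
    exact this
  have hd1 : d ≠ 1 := by
    intro h5
    rw [h5, orderOf_one] at hd
    omega
  have h5 := core h T e hC (d := d) (t := t) (by rw [hd]; decide) hd1 hcomm ⟨2, ht4⟩
  rw [← QuotientGroup.eq_one_iff] at h5
  rw [h5, orderOf_one] at hz
  omega

theorem quot_cases (h : UI Y) (T : Subgroup Y) [T.Normal] (e : T ≃* QuaternionGroup 2)
    (hC : centralizer (T : Set Y) ≤ T) :
    IsPGroup 2 Y ∨ Nonempty (Y ⧸ centralizer (T : Set Y) ≃* alternatingGroup (Fin 4)) ∨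
      Nonempty (Y ⧸ centralizer (T : Set Y) ≃* Equiv.Perm (Fin 4)) := by
  have hcT := card_q8 e
  have hcZ := card_centralizer_q8 T e hC
  have h1 := T.card_mul_index
  have h2 := (centralizer (T : Set Y)).card_mul_index
  rw [hcT] at h1
  rw [hcZ] at h2
  have h3 := index_dvd_six T e hC
  have h4 : T.index ∈ Nat.divisors 6 := Nat.mem_divisors.2 ⟨h3, by norm_num⟩
  have h5 : Nat.divisors 6 = {1, 2, 3, 6} := by decide
  rw [h5] at h4
  simp only [Finset.mem_insert, Finset.mem_singleton] at h4
  have hq : Nat.card (Y ⧸ centralizer (T : Set Y)) = (centralizer (T : Set Y)).index := rfl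
  rcases h4 with h4 | h4 | h4 | h4
  · left
    exact IsPGroup.of_card (n := 3) (by rw [← h1, h4]; norm_num)
  · left
    exact IsPGroup.of_card (n := 4) (by rw [← h1, h4]; norm_num)
  · right; left
    apply Cfsg.Agent.S0228.result
    · rw [hq]; omega
    · exact no_central_involution h T e hC (by rw [← h1, h4]; norm_num)
  · right; right
    apply Cfsg.Agent.S1012.result
    · rw [hq]; omega
    · exact no_order_six h T e hC

end Cfsg.Agent.Lib.Helper32.FCSol
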